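import Cfsg.Agent.H45.GG.Cusp
import Cfsg.Agent.H45.GG.Series
import Cfsg.Agent.H53.HC.Series
import Cfsg.Agent.CharactersDeep.IndFun

/-!
# Characters at elements without fixed points on a normal subgroup (S2452, helper554)

* `conj_of_nofix`, `sum_eq` : `y` normalises `V` and has no fixed points on `V`: `∑_v χ (y v) = |V| χ y`;
* `apply_zero` : `χ y = 0` if `∑_v χ v = 0`;
* `card_le_norm` : the number of constituents is at most the norm;
* `val_abs` : `χ y = 2 [χ, 1] - [χ, 1_B^P]` if `1_B^P` has norm two and `y` has no fixed points on `P/B`.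
-/

set_option autoImplicit false
set_option linter.unusedSectionVars false

open scoped ComplexConjugate
open Cfsg

namespace Cfsg.Agent.H554.TW

open Cfsg.Agent.OddOrderCharacters.Clifford Cfsg.Agent.Characters Cfsg.Agent.H53.HC Cfsg.Agent.H641.Gow
open Cfsg.Agent.H246.Dl (sum_hom_ne_zero sum_hom_nat const_of_sum_ne_zero classInner_symm_ne)

variable {G : Type*} [Group G]

theorem isChar_ind [Fintype G] (H : Subgroup G) {θ : H → ℂ} (hθ : IsCharacter H θ) :
    IsCharacter G (indFun H θ) := Cfsg.Agent.CharactersDeep.IndFun.isCharacter_indFun H hθ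

/-- sums over cosets of a subgroup without fixed vectors -/
theorem sum_mul_eq_zero [Finite G] {U : Subgroup G} [Fintype U] {χ : G → ℂ}
    (hχ : IsCharacter G χ) (h : ∑ u : U, χ u = 0) (g : G) : ∑ u : U, χ (g * u) = 0 := by
  classical
  obtain ⟨n, ρ, rfl⟩ := hχ
  let σ : Representation ℂ U (Fin n → ℂ) := ρ.comp U.subtype
  have hne : (Fintype.card U : ℂ) ≠ 0 := by exact_mod_cast Fintype.card_ne_zero
  let hinv : Invertible (Fintype.card U : ℂ) := invertibleOfNonzero hne
  have hp := σ.isProj_averageMap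
  have h2 : σ.averageMap = (⅟ (Fintype.card U : ℂ)) • ∑ u : U, ρ u := by
    simp only [Representation.averageMap, GroupAlgebra.average, map_smul, map_sum]
    congr 1
    refine Finset.sum_congr rfl fun u _ => ?_
    rw [MonoidAlgebra.of_apply, Representation.asAlgebraHom_single_one]
    rfl
  have h3 : LinearMap.trace ℂ _ σ.averageMap = 0 := by
    rw [h2, map_smul, map_sum]
    change _ • ∑ u : U, ρ.character u = 0
    rw [h, smul_zero]
  have h4 := hp.trace
  rw [h3] at h4
  have h5 : Module.finrank ℂ σ.invariants = 0 := by exact_mod_cast h4.symm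
  have h6 : σ.invariants = ⊥ := Submodule.finrank_eq_zero.1 h5
  have h7 : σ.averageMap = 0 := by
    refine LinearMap.ext fun v => ?_
    have := hp.map_mem v
    rw [h6] at this
    rw [(Submodule.mem_bot ℂ).1 this]
    rfl
  have h8 : ∑ u : U, ρ u = 0 := by
    rw [h2] at h7
    exact (smul_eq_zero.1 h7).resolve_left (Invertible.ne_zero _)
  have h9 : ∑ u : U, ρ.character (g * u) = LinearMap.trace ℂ _ (ρ g * (∑ u : U, ρ u)) := by
    rw [Finset.mul_sum, map_sum]
    refine Finset.sum_congr rfl fun u _ => ?_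
    change LinearMap.trace ℂ _ (ρ (g * u)) = _
    rw [map_mul]
  rw [h9, h8, mul_zero, map_zero]

/-- `y` normalises `V` and has no fixed points on `V`: the coset `y V` is a class under `V` -/
theorem conj_of_nofix [Finite G] {V : Subgroup G} {y : G} (hn : ∀ v ∈ V, y⁻¹ * v * y ∈ V)
    (hf : ∀ v ∈ V, y * v * y⁻¹ = v → v = 1) {v : G} (hv : v ∈ V) : ∃ u ∈ V, u * y * u⁻¹ = y * v := by
  let f : V → V := fun u => ⟨y⁻¹ * u * y * (u : G)⁻¹, mul_mem (hn u u.2) (inv_mem u.2)⟩
  have hinj : Function.Injective f := by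
    intro a b hab
    have h1 : y⁻¹ * a * y * (a : G)⁻¹ = y⁻¹ * b * y * (b : G)⁻¹ := congrArg Subtype.val hab
    have h2 : y * ((b : G)⁻¹ * a) * y⁻¹ = (b : G)⁻¹ * a := by
      have h3 : (a : G) * y * (a : G)⁻¹ = b * y * (b : G)⁻¹ := by
        have := congrArg (fun z => y * z) h1
        simpa [mul_assoc] using this
      have h4 : (b : G)⁻¹ * ((a : G) * y * (a : G)⁻¹) * a = (b : G)⁻¹ * (b * y * (b : G)⁻¹) * a := by rw [h3]
      have h5 : (b : G)⁻¹ * a * y = y * ((b : G)⁻¹ * a) := by
        simpa [mul_assoc] using h4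
      rw [← h5]
      group
    have h6 := hf _ (mul_mem (inv_mem b.2) a.2) h2
    exact Subtype.ext (inv_mul_eq_one.1 h6).symm
  obtain ⟨u, hu⟩ := (Finite.injective_iff_surjective.1 hinj) ⟨v, hv⟩
  refine ⟨u, u.2, ?_⟩
  have h1 : y⁻¹ * u * y * (u : G)⁻¹ = v := congrArg Subtype.val hu
  rw [← h1]
  group

theorem sum_eq [Finite G] {V : Subgroup G} [Fintype V] {y : G} (hn : ∀ v ∈ V, y⁻¹ * v * y ∈ V)
    (hf : ∀ v ∈ V, y * v * y⁻¹ = v → v = 1) {χ : G → ℂ} (hχ : IsClassFunction G χ) :
    ∑ v : V, χ (y * v) = (Fintype.card V : ℂ) * χ y := by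
  have h1 : ∀ v : V, χ (y * v) = χ y := by
    intro v
    obtain ⟨u, -, hu⟩ := conj_of_nofix hn hf v.2
    rw [← hu]
    exact hχ y u
  rw [Finset.sum_congr rfl fun v _ => h1 v, Finset.sum_const, Finset.card_univ, nsmul_eq_mul]

/-- a character without `V`-fixed vectors vanishes at elements without fixed points on `V` -/
theorem apply_zero [Finite G] {V : Subgroup G} [Fintype V] {y : G} (hn : ∀ v ∈ V, y⁻¹ * v * y ∈ V)
    (hf : ∀ v ∈ V, y * v * y⁻¹ = v → v = 1) {χ : G → ℂ} (hχ : IsCharacter G χ) (h0 : ∑ v : V, χ v = 0) :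
    χ y = 0 := by
  have h1 := sum_eq hn hf (Core.isCharacter_isClassFunction hχ)
  rw [sum_mul_eq_zero hχ h0 y] at h1
  have hne : (Fintype.card V : ℂ) ≠ 0 := by exact_mod_cast Fintype.card_ne_zero
  exact (mul_eq_zero.1 h1.symm).resolve_left hne

/-- **The number of constituents is at most the norm.** -/
theorem card_le_norm [Fintype G] {Θ : G → ℂ} (hΘ : IsCharacter G Θ) {ι : Type*} [Fintype ι] {E : ι → G → ℂ}
    (hE : ∀ j, IsIrrCharacter G (E j)) (hinj : Function.Injective E) (hne : ∀ j, classInner Θ (E j) ≠ 0)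
    {k : ℕ} (hk : classInner Θ Θ = k) : Fintype.card ι ≤ k := by
  classical
  have : Finite (IrrCharacter G) := Core.finite_irr
  have : Fintype (IrrCharacter G) := Fintype.ofFinite _
  obtain ⟨m, hm⟩ := Core.exists_nat_comb hΘ
  have h1 : ∀ ψ : IrrCharacter G, classInner Θ (ψ : G → ℂ) = m ψ := by
    intro ψ
    rw [hm, Core.classInner_sum_nsmul_irr]
  let F : ι → IrrCharacter G := fun j => ⟨E j, hE j⟩
  have hF : Function.Injective F := fun a b hab => hinj (congrArg Subtype.val hab)
  have h2 : classInner Θ Θ = ∑ ψ : IrrCharacter G, ((m ψ * m ψ : ℕ) : ℂ) := by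
    conv_lhs => rw [hm]
    rw [Core.classInner_sum_left]
    refine Finset.sum_congr rfl fun ψ _ => ?_
    have h3 : classInner (m ψ • (ψ : G → ℂ)) Θ = (m ψ : ℂ) * classInner (ψ : G → ℂ) Θ := by
      have : (m ψ • (ψ : G → ℂ)) = (m ψ : ℂ) • (ψ : G → ℂ) := by
        funext x
        simp
      rw [this, Core.classInner_smul_left]
    rw [← hm, h3, ← Core.classInner_conj_symm, h1 ψ, Complex.conj_natCast]
    push_cast
    ring
  have h4 : (k : ℂ) = ((∑ ψ : IrrCharacter G, m ψ * m ψ : ℕ) : ℂ) := by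
    rw [← hk, h2]
    push_cast
    rfl
  have h5 : k = ∑ ψ : IrrCharacter G, m ψ * m ψ := by exact_mod_cast h4
  rw [h5, ← Finset.card_univ, ← Finset.card_image_of_injective Finset.univ hF, Finset.card_eq_sum_ones]
  refine (Finset.sum_le_sum fun ψ hψ => ?_).trans (Finset.sum_le_sum_of_subset (Finset.subset_univ _))
  obtain ⟨j, -, rfl⟩ := Finset.mem_image.1 hψ
  have h6 : m (F j) ≠ 0 := by
    intro h0
    apply hne j
    have := h1 (F j)
    rw [h0, Nat.cast_zero] at this
    exact this
  exact Nat.mul_pos (Nat.pos_of_ne_zero h6) (Nat.pos_of_ne_zero h6)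

/-- characters with a common constituent are not orthogonal -/
theorem ne_zero_of_common [Fintype G] {Θ Φ χ : G → ℂ} (hΘ : IsCharacter G Θ) (hΦ : IsCharacter G Φ)
    (hχ : IsIrrCharacter G χ) (h1 : classInner Θ χ ≠ 0) (h2 : classInner Φ χ ≠ 0) : classInner Θ Φ ≠ 0 := by
  have h3 := isCharacter_sub_irr hΘ hχ h1
  obtain ⟨a, ha⟩ := Core.classInner_isNat h3 hΦ
  obtain ⟨b, hb⟩ := Core.classInner_isNat (Core.isIrr_isCharacter hχ) hΦ
  have hb0 : b ≠ 0 := by
    rintro rfl
    exact classInner_symm_ne h2 (by rw [hb, Nat.cast_zero])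
  have e : classInner Θ Φ = classInner (Θ - χ) Φ + classInner χ Φ := by
    rw [← Core.classInner_add_left]
    congr 1
    funext x
    simp
  rw [e, ha, hb]
  have : a + b ≠ 0 := by omega
  exact_mod_cast this

/-- the inner product on a group above a constituent of the restriction -/
theorem ne_zero_of_restrict [Fintype G] {H : Subgroup G} [Fintype H] {χ ψ : G → ℂ} {θ : H → ℂ}
    (hχ : IsCharacter G χ) (hψ : IsIrrCharacter G ψ) (hθ : IsCharacter H θ) (h1 : classInner χ ψ ≠ 0)
    (h2 : classInner (fun t : H => ψ t) θ ≠ 0) : classInner (fun t : H => χ t) θ ≠ 0 := by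
  have h3 := isCharacter_sub_irr hχ hψ h1
  have h3' : IsCharacter H (fun t : H => (χ - ψ) t) := Core.isCharacter_comp H.subtype h3
  have h4 : IsCharacter H (fun t : H => ψ t) := Core.isCharacter_comp H.subtype (Core.isIrr_isCharacter hψ)
  obtain ⟨a, ha⟩ := Core.classInner_isNat h3' hθ
  obtain ⟨b, hb⟩ := Core.classInner_isNat h4 hθ
  have hb0 : b ≠ 0 := by
    rintro rfl
    exact h2 (by rw [hb, Nat.cast_zero])
  have e : classInner (fun t : H => χ t) θ = classInner (fun t : H => (χ - ψ) t) θ + classInner (fun t : H => ψ t) θ := by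
    rw [← Core.classInner_add_left]
    congr 1
    funext x
    simp
  rw [e, ha, hb]
  have : a + b ≠ 0 := by omega
  exact_mod_cast this

/-- **The values at an element without fixed points on `V` and on `P/B`.** -/
theorem val_abs [Fintype G] {V B : Subgroup G} [V.Normal] {y : G} (hf : ∀ v ∈ V, y * v * y⁻¹ = v → v = 1)
    (hB : ∀ g : G, g * y * g⁻¹ ∉ B) {σ : G → ℂ} (hσ : IsIrrCharacter G σ) (hσ1 : σ ≠ 1)
    (hπ : indFun B (1 : B → ℂ) = 1 + σ) {χ : G → ℂ} (hχ : IsCharacter G χ)
    (hc : ∀ ψ : G → ℂ, IsIrrCharacter G ψ → classInner χ ψ ≠ 0 → (∀ v ∈ V, ψ v = ψ 1) →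
      classInner (indFun B (1 : B → ℂ)) ψ ≠ 0) :
    χ y = 2 * classInner χ 1 - classInner χ (indFun B (1 : B → ℂ)) := by
  classical
  have : Finite (IrrCharacter G) := Core.finite_irr
  have : Fintype (IrrCharacter G) := Fintype.ofFinite _
  have : Fintype V := Fintype.ofFinite _
  obtain ⟨m, hm⟩ := Core.exists_nat_comb hχ
  have h1 : ∀ ψ : IrrCharacter G, classInner χ (ψ : G → ℂ) = m ψ := by
    intro ψ
    rw [hm, Core.classInner_sum_nsmul_irr]
  have hone : IsIrrCharacter G (1 : G → ℂ) := Core.isIrr_one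
  have hσy : σ y = -1 := by
    have h2 : indFun B (1 : B → ℂ) y = 0 := by
      rw [Core.indFun_apply]
      have h3 : ∀ x : G, extendByZero B (1 : B → ℂ) (x⁻¹ * y * x) = 0 := by
        intro x
        refine Core.extendByZero_of_notMem B _ ?_
        have := hB x⁻¹
        rwa [inv_inv] at this
      simp only [h3, Finset.sum_const_zero, mul_zero]
    rw [hπ] at h2
    simp only [Pi.add_apply, Pi.one_apply] at h2
    linear_combination h2
  have hn : ∀ v ∈ V, y⁻¹ * v * y ∈ V := by
    intro v hv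
    have := Subgroup.Normal.conj_mem (H := V) inferInstance v hv y⁻¹
    rwa [inv_inv] at this
  let one : IrrCharacter G := ⟨1, hone⟩
  let sg : IrrCharacter G := ⟨σ, hσ⟩
  have hos : one ≠ sg := fun he => hσ1 (congrArg Subtype.val he).symm
  have h4 : ∀ ψ : IrrCharacter G, (m ψ : ℂ) * (ψ : G → ℂ) y =
      (if ψ = one then (m ψ : ℂ) else 0) - (if ψ = sg then (m ψ : ℂ) else 0) := by
    intro ψ
    by_cases ho : ψ = one
    · rw [if_pos ho, if_neg (by rw [ho]; exact hos), sub_zero]
      have : (ψ : G → ℂ) = 1 := congrArg Subtype.val ho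
      rw [this, Pi.one_apply, mul_one]
    · rw [if_neg ho]
      by_cases hs : ψ = sg
      · rw [if_pos hs]
        have : (ψ : G → ℂ) = σ := congrArg Subtype.val hs
        rw [this, hσy]
        ring
      · rw [if_neg hs, sub_zero]
        by_cases hm0 : m ψ = 0
        · rw [hm0, Nat.cast_zero, zero_mul]
        by_cases h0 : ∑ v : V, (ψ : G → ℂ) v = 0
        · rw [apply_zero hn hf (Core.isIrr_isCharacter ψ.2) h0, mul_zero]
        · exfalso
          have h5 := hc ψ ψ.2 (by rw [h1]; exact_mod_cast hm0) (const_of_sum_ne_zero V ψ.2 h0)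
          apply h5
          rw [hπ, Core.classInner_add_left, Core.classInner_irr_ne hone ψ.2 (fun he => ho (Subtype.ext he.symm)),
            Core.classInner_irr_ne hσ ψ.2 (fun he => hs (Subtype.ext he.symm)), add_zero]
  have h6 : χ y = (m one : ℂ) - m sg := by
    rw [hm, Finset.sum_apply]
    have h7 : ∀ ψ : IrrCharacter G, (m ψ • (ψ : G → ℂ)) y =
        (if ψ = one then (m ψ : ℂ) else 0) - (if ψ = sg then (m ψ : ℂ) else 0) := by
      intro ψ
      rw [← h4 ψ, Pi.smul_apply, nsmul_eq_mul]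
    rw [Finset.sum_congr rfl fun ψ _ => h7 ψ, Finset.sum_sub_distrib]
    simp
  rw [h6, hπ, Core.classInner_add_right]
  have h8 : classInner χ (1 : G → ℂ) = m one := h1 one
  have h9 : classInner χ σ = m sg := h1 sg
  rw [h8, h9]
  ring

/-- **A doubly transitive permutation character.** -/
theorem exists_sigma [Fintype G] (B : Subgroup G) [Fintype B] {n : G} (hn : n ∉ B)
    (hd : ∀ x : G, x ∈ B ∨ ∃ a ∈ B, ∃ b ∈ B, x = a * n * b) :
    ∃ σ : G → ℂ, IsIrrCharacter G σ ∧ σ ≠ 1 ∧ indFun B (1 : B → ℂ) = 1 + σ := by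
  classical
  have hπ : IsCharacter G (indFun B (1 : B → ℂ)) := isChar_ind B Core.isCharacter_one
  have h2 : classInner (indFun B (1 : B → ℂ)) (indFun B (1 : B → ℂ)) = 2 := by
    have : ∀ i : Bool, Fintype (dsub B (if i then n else 1)) := fun i => Fintype.ofFinite _
    rw [classInner_indFun_eq_sum B (Core.isCharacter_isClassFunction Core.isCharacter_one)
      (Core.isCharacter_isClassFunction Core.isCharacter_one) (fun i : Bool => if i then n else 1) ?_ ?_]
    · have h3 : ∀ i : Bool, (Fintype.card (dsub B (if i then n else 1)) : ℂ)⁻¹ *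
          twist B 1 1 (if i then n else 1) = 1 := by
        intro i
        rw [twist_eq_classInner]
        have e1 : ((1 : B → ℂ) ∘ (dsub B (if i then n else 1)).subtype) = 1 := rfl
        have e2 : ((1 : B → ℂ) ∘ dhom B (if i then n else 1)) = 1 := rfl
        rw [e1, e2]
        exact Core.classInner_irr_self Core.isIrr_one
      rw [Finset.sum_congr rfl fun i _ => h3 i]
      simp
    · rintro (_ | _) (_ | _) ⟨a, ha, b, hb, e⟩
      · rfl
      · exfalso
        simp only [if_true, Bool.false_eq_true, if_false] at e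
        apply hn
        rw [e]
        exact mul_mem (mul_mem ha (one_mem _)) hb
      · exfalso
        simp only [if_true, Bool.false_eq_true, if_false] at e
        apply hn
        have : n = a⁻¹ * 1 * b⁻¹ := by rw [e]; group
        rw [this]
        exact mul_mem (mul_mem (inv_mem ha) (one_mem _)) (inv_mem hb)
      · rfl
    · intro x hx
      exfalso
      rcases hd x with h3 | ⟨a, ha, b, hb, e⟩
      · exact hx false ⟨x, h3, 1, one_mem _, by simp⟩
      · exact hx true ⟨a, ha, b, hb, by simpa using e⟩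
  have h1 : classInner (indFun B (1 : B → ℂ)) (1 : G → ℂ) = 1 := by
    rw [Cfsg.Agent.OddOrderCharacters.Clifford.classInner_indFun B _ _
      (Core.isCharacter_isClassFunction Core.isCharacter_one)]
    exact Core.classInner_irr_self Core.isIrr_one
  have hone : IsIrrCharacter G (1 : G → ℂ) := Core.isIrr_one
  have h1' : classInner (1 : G → ℂ) (indFun B (1 : B → ℂ)) = 1 := by
    rw [← Core.classInner_conj_symm, h1, map_one]
  have hc := isCharacter_sub_irr hπ hone (by rw [h1]; exact one_ne_zero)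
  have hi : IsIrrCharacter G (indFun B (1 : B → ℂ) - 1) := by
    rw [Core.isIrr_iff_classInner_self hc, Core.classInner_sub_left, Core.classInner_sub_right,
      Core.classInner_sub_right, h2, h1, h1', Core.classInner_irr_self hone]
    norm_num
  refine ⟨_, hi, ?_, ?_⟩
  · intro he
    have h5 : classInner (indFun B (1 : B → ℂ) - 1) (1 : G → ℂ) = 0 := by
      rw [Core.classInner_sub_left, h1, Core.classInner_irr_self hone, sub_self]
    rw [he, Core.classInner_irr_self hone] at h5
    exact one_ne_zero h5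
  · funext x
    simp

end Cfsg.Agent.H554.TW
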