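import Cfsg.Agent.H554.TW.Abs

/-!
# The values at an element without fixed points on `V` and on `P/B`, subgroups of one group (S2452, helper554)
-/

set_option autoImplicit false
set_option linter.unusedSectionVars false

open scoped ComplexConjugate
open Cfsg

namespace Cfsg.Agent.H554.TW

open Cfsg.Agent.OddOrderCharacters.Clifford Cfsg.Agent.Characters Cfsg.Agent.H53.HC Cfsg.Agent.H641.Gow
open Cfsg.Agent.H246.Dl (sum_hom_ne_zero sum_hom_nat const_of_sum_ne_zero classInner_symm_ne)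

variable {G : Type*} [Group G]

theorem classInner_equiv {A B : Type*} [Group A] [Group B] [Fintype A] [Fintype B] (e : A ≃* B) (f g : B → ℂ) :
    classInner (f ∘ e) (g ∘ e) = classInner f g := by
  rw [Core.classInner_def, Core.classInner_def, Nat.card_congr e.toEquiv]
  congr 1
  exact Fintype.sum_equiv e.toEquiv _ _ fun x => rfl

/-- a constituent trivial on `V` -/
theorem exists_const' [Fintype G] (V : Subgroup G) [V.Normal] [Fintype V] {φ : G → ℂ} (hφ : IsCharacter G φ)
    (h : ∑ v : V, φ v ≠ 0) : ∃ β : G → ℂ, IsIrrCharacter G β ∧ classInner φ β ≠ 0 ∧ ∀ v ∈ V, β v = β 1 := by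
  classical
  have : Finite (IrrCharacter G) := Core.finite_irr
  have : Fintype (IrrCharacter G) := Fintype.ofFinite _
  obtain ⟨m, hm⟩ := Core.exists_nat_comb hφ
  have h1 : (∑ v : V, φ v : ℂ) = ∑ ψ : IrrCharacter G, (m ψ : ℂ) * ∑ v : V, (ψ : G → ℂ) v := by
    symm
    simp only [Finset.mul_sum]
    rw [Finset.sum_comm]
    refine Finset.sum_congr rfl fun v _ => ?_
    have h2 := congrFun hm v
    simp only [Finset.sum_apply, nsmul_eq_mul] at h2
    exact h2.symm
  rw [h1] at h
  obtain ⟨ψ, -, hψ⟩ := Finset.exists_ne_zero_of_sum_ne_zero h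
  refine ⟨ψ, ψ.2, ?_, const_of_sum_ne_zero V ψ.2 (right_ne_zero_of_mul hψ)⟩
  rw [hm, Core.classInner_sum_nsmul_irr]
  exact left_ne_zero_of_mul hψ

/-- the inner product on a group above a constituent of the restriction -/
theorem ne_zero_of_restrict' [Fintype G] {H : Type*} [Group H] [Fintype H] (f : H →* G) {χ ψ : G → ℂ} {θ : H → ℂ}
    (hχ : IsCharacter G χ) (hψ : IsIrrCharacter G ψ) (hθ : IsCharacter H θ) (h1 : classInner χ ψ ≠ 0)
    (h2 : classInner (fun t : H => ψ (f t)) θ ≠ 0) : classInner (fun t : H => χ (f t)) θ ≠ 0 := by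
  have h3 := isCharacter_sub_irr hχ hψ h1
  have h3' : IsCharacter H (fun t : H => (χ - ψ) (f t)) := Core.isCharacter_comp f h3
  have h4 : IsCharacter H (fun t : H => ψ (f t)) := Core.isCharacter_comp f (Core.isIrr_isCharacter hψ)
  obtain ⟨a, ha⟩ := Core.classInner_isNat h3' hθ
  obtain ⟨b, hb⟩ := Core.classInner_isNat h4 hθ
  have hb0 : b ≠ 0 := by
    rintro rfl
    exact h2 (by rw [hb, Nat.cast_zero])
  have e : classInner (fun t : H => χ (f t)) θ =
      classInner (fun t : H => (χ - ψ) (f t)) θ + classInner (fun t : H => ψ (f t)) θ := by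
    rw [← Core.classInner_add_left]
    congr 1
    funext x
    simp
  rw [e, ha, hb]
  have : a + b ≠ 0 := by omega
  exact_mod_cast this

theorem inner_sub [Fintype G] {B P : Subgroup G} (hBP : B ≤ P) [Fintype B] [Fintype P] {φ : P → ℂ}
    (hφ : IsClassFunction P φ) : classInner (indFun (B.subgroupOf P) (1 : B.subgroupOf P → ℂ)) φ =
      classInner (1 : B → ℂ) (fun b : B => φ ⟨b, hBP b.2⟩) := by
  have : Fintype (B.subgroupOf P) := Fintype.ofFinite _
  rw [classInner_indFun (B.subgroupOf P) _ _ hφ]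
  exact classInner_equiv (Subgroup.subgroupOfEquivOfLe hBP) (1 : B → ℂ) (fun b : B => φ ⟨b, hBP b.2⟩)

theorem inner_swap [Fintype G] (P : Subgroup G) [Fintype P] {χ : G → ℂ} (hχ : IsClassFunction G χ) :
    classInner χ (indFun P (1 : P → ℂ)) = conj (classInner (1 : P → ℂ) (fun t : P => χ t)) := by
  rw [← Core.classInner_conj_symm, classInner_indFun P _ _ hχ]

/-- **The values at an element without fixed points on `V` and on `P/B`.** -/
theorem val_sub [Fintype G] {V B P : Subgroup G} [Fintype P] [Fintype B] (hVP : V ≤ P) (hBP : B ≤ P)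
    (hn : P ≤ Subgroup.normalizer (V : Set G)) {y : G} (hy : y ∈ P)
    (hf : ∀ v ∈ V, y * v * y⁻¹ = v → v = 1) (hB : ∀ g ∈ P, g * y * g⁻¹ ∉ B) {n : G} (hnP : n ∈ P) (hnB : n ∉ B)
    (hcos : ∀ x ∈ P, x ∈ B ∨ ∃ a ∈ B, ∃ b ∈ B, x = a * n * b) {χ : G → ℂ} (hχ : IsCharacter G χ)
    (hc : ∀ ψ : P → ℂ, IsIrrCharacter P ψ → classInner (fun t : P => χ t) ψ ≠ 0 →
      (∀ v (hv : v ∈ V), ψ ⟨v, hVP hv⟩ = ψ 1) → classInner (1 : B → ℂ) (fun b : B => ψ ⟨b, hBP b.2⟩) ≠ 0) :
    χ y = 2 * classInner χ (indFun P (1 : P → ℂ)) - classInner χ (indFun B (1 : B → ℂ)) := by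
  classical
  have : Fintype (B.subgroupOf P) := Fintype.ofFinite _
  have hNor : (V.subgroupOf P).Normal := (Subgroup.normal_subgroupOf_iff_le_normalizer hVP).2 hn
  obtain ⟨σ, hσ, hσ1, hπ⟩ := exists_sigma (B.subgroupOf P) (n := (⟨n, hnP⟩ : P))
    (fun hm => hnB (Subgroup.mem_subgroupOf.1 hm)) (by
      intro x
      rcases hcos x x.2 with h1 | ⟨a, ha, b, hb, e⟩
      · exact Or.inl (Subgroup.mem_subgroupOf.2 h1)
      · exact Or.inr ⟨⟨a, hBP ha⟩, Subgroup.mem_subgroupOf.2 ha, ⟨b, hBP hb⟩, Subgroup.mem_subgroupOf.2 hb,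
          Subtype.ext e⟩)
  have hres : IsCharacter P (fun t : P => χ t) := Core.isCharacter_comp P.subtype hχ
  have key := val_abs (V := V.subgroupOf P) (B := B.subgroupOf P) (y := (⟨y, hy⟩ : P)) (by
      intro v hv he
      exact Subtype.ext (hf v (Subgroup.mem_subgroupOf.1 hv) (congrArg Subtype.val he))) (by
      intro g hg
      exact hB g g.2 (Subgroup.mem_subgroupOf.1 hg)) hσ hσ1 hπ hres (by
      intro ψ hψ hne hV
      rw [inner_sub hBP (Core.isIrr_isClassFunction hψ)]
      exact hc ψ hψ hne fun v hv => hV _ (Subgroup.mem_subgroupOf.2 hv))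
  rw [← Core.classInner_conj_symm (1 : P → ℂ), ← Core.classInner_conj_symm (indFun (B.subgroupOf P) 1),
    inner_sub hBP (Core.isCharacter_isClassFunction hres)] at key
  rw [inner_swap P (Core.isCharacter_isClassFunction hχ), inner_swap B (Core.isCharacter_isClassFunction hχ)]
  exact key

end Cfsg.Agent.H554.TW
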