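import Cfsg.Agent.H554.TW.Abs2

/-!
# Constituents trivial on a subgroup (S2452, helper554)
-/

set_option autoImplicit false
set_option linter.unusedSectionVars false

open scoped ComplexConjugate
open Cfsg

namespace Cfsg.Agent.H554.TW

open Cfsg.Agent.OddOrderCharacters.Clifford Cfsg.Agent.Characters Cfsg.Agent.H53.HC Cfsg.Agent.H641.Gow
open Cfsg.Agent.H246.Dl (sum_hom_ne_zero sum_hom_nat const_of_sum_ne_zero classInner_symm_ne)

variable {G : Type*} [Group G]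

theorem exists_const_sub [Fintype G] {V B : Subgroup G} [Fintype B] [Fintype V] (hVB : V ≤ B)
    (hn : B ≤ Subgroup.normalizer (V : Set G)) {φ : B → ℂ} (hφ : IsCharacter B φ)
    (h : ∑ v : V, φ ⟨v, hVB v.2⟩ ≠ 0) :
    ∃ β : B → ℂ, IsIrrCharacter B β ∧ classInner φ β ≠ 0 ∧ ∀ v (hv : v ∈ V), β ⟨v, hVB hv⟩ = β 1 := by
  classical
  have hN : (V.subgroupOf B).Normal := (Subgroup.normal_subgroupOf_iff_le_normalizer hVB).2 hn
  have : Fintype (V.subgroupOf B) := Fintype.ofFinite _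
  have hs : ∑ v : V.subgroupOf B, φ (v : B) ≠ 0 := by
    intro h0
    apply h
    rw [← h0]
    exact (Fintype.sum_equiv (Subgroup.subgroupOfEquivOfLe hVB).toEquiv
      (fun v : V.subgroupOf B => φ (v : B)) (fun v : V => φ ⟨v, hVB v.2⟩) fun v => rfl).symm
  obtain ⟨β, hβ, hβne, hβV⟩ := exists_const' _ hφ hs
  exact ⟨β, hβ, hβne, fun v hv => hβV ⟨v, hVB hv⟩ (Subgroup.mem_subgroupOf.2 hv)⟩

/-- `V ≤ B ≤ P ≤ G`, `ψ ∈ Irr P` a constituent of `χ|_P` with `V`-fixed vectors -/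
theorem exists_beta [Fintype G] {V B P : Subgroup G} [Fintype B] [Fintype P] (hVB : V ≤ B) (hBP : B ≤ P)
    (hVP : V ≤ P) (hn : B ≤ Subgroup.normalizer (V : Set G)) {χ : G → ℂ} (hχ : IsCharacter G χ) {ψ : P → ℂ}
    (hψ : IsIrrCharacter P ψ) (hne : classInner (fun t : P => χ t) ψ ≠ 0)
    (h : ∀ [Fintype V], ∑ v : V, ψ (Subgroup.inclusion hVP v) ≠ 0)
    (hc : ∀ β : B → ℂ, IsIrrCharacter B β → (∀ v (hv : v ∈ V), β ⟨v, hVB hv⟩ = β 1) →
      classInner (fun t : B => χ t) β ≠ 0 → β = 1) :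
    classInner (1 : B → ℂ) (fun b : B => ψ ⟨b, hBP b.2⟩) ≠ 0 := by
  classical
  have : Fintype V := Fintype.ofFinite _
  have hφ : IsCharacter B (fun b : B => ψ ⟨b, hBP b.2⟩) :=
    Core.isCharacter_comp (Subgroup.inclusion hBP) (Core.isIrr_isCharacter hψ)
  obtain ⟨β, hβ, hβne, hβV⟩ := exists_const_sub hVB hn hφ h
  have hresP : IsCharacter P (fun t : P => χ t) := Core.isCharacter_comp P.subtype hχ
  have h5 : classInner (fun t : B => χ t) β ≠ 0 :=
    ne_zero_of_restrict' (Subgroup.inclusion hBP) hresP hψ (Core.isIrr_isCharacter hβ) hne hβne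
  rw [hc β hβ hβV h5] at hβne
  exact classInner_symm_ne hβne

end Cfsg.Agent.H554.TW
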