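import Cfsg.Agent.H554.TW.HC2
import Cfsg.Agent.H554.TW.Abs3

/-!
# Values of characters at elliptic elements of a Levi subgroup (S2452, helper554)

`G` a finite group with a root group datum.

* `val_y` : `χ` a constituent of `1_B^G`, `y ∈ P_{i}` without fixed points on `V_{i}` and on `P_{i}/B`:
  `χ y = 2 [χ, 1_P^G] - [χ, 1_B^G]`.
-/

set_option autoImplicit false
set_option linter.unusedSectionVars false

open scoped ComplexConjugate Pointwise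
open Cfsg

namespace Cfsg.Agent.H554.TW

open Cfsg.Agent.OddOrderCharacters.Clifford Cfsg.Agent.Characters Cfsg.Agent.H53.HC Cfsg.Agent.H641.Gow
open Cfsg.Agent.H45.GG
open CoxeterSystem Cfsg.Agent.ChevalleyStructure.CoxeterGeom Cfsg.Agent.Tits.Roots Cfsg.Agent.Tits.Core
  Cfsg.Agent.Tits.Exchange Cfsg.Agent.Nodes.Reps Cfsg.Agent.Nodes.BNOf Cfsg.Agent.Nodes.StabComb
  Cfsg.Agent.Nodes.Bruhat Cfsg.Agent.Nodes.OppDec Cfsg.Agent.Nodes.LeviDec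
open Cfsg.Agent.H246.Dl (sum_hom_ne_zero const_of_sum_ne_zero classInner_symm_ne)

variable {I W Y : Type*} [Fintype I] [DecidableEq I] [Group W] [Group Y] {M : CoxeterMatrix I}
  {cs : CoxeterSystem M W} {A : I → I → ℤ} {h : IsCartan M A} {p : ℕ} {T : Subgroup Y} {n : I → Y}
  {X : (I → ℤ) → Subgroup Y} (R : RGD cs h p T n X)

include R

omit R in
theorem mem_WJ_single' {i : I} {w : W} (hw : w ∈ WJ cs {i}) : w = 1 ∨ w = cs.simple i := by
  have h1 : WJ cs {i} = Subgroup.zpowers (cs.simple i) := by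
    unfold WJ
    rw [Set.image_singleton, Subgroup.zpowers_eq_closure]
  rw [h1] at hw
  obtain ⟨k, rfl⟩ := hw
  rcases Int.even_or_odd k with ⟨m, rfl⟩ | ⟨m, rfl⟩
  · left
    dsimp only
    rw [zpow_add, ← (Commute.refl (cs.simple i)).mul_zpow, cs.simple_mul_simple_self, one_zpow]
  · right
    dsimp only
    rw [zpow_add, zpow_one, two_mul, zpow_add, ← (Commute.refl (cs.simple i)).mul_zpow, cs.simple_mul_simple_self,
      one_zpow, one_mul]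

theorem mem_PJ_empty [Finite W] {g : Y} : g ∈ PJ cs h T X ∅ ↔ Cell R.nsys cs h X 1 g := by
  rw [mem_PJ_iff_cell R]
  have h1 : ∀ w, w ∈ WJ cs (∅ : Set I) ↔ w = 1 := by
    intro w
    unfold WJ
    rw [Set.image_empty, Subgroup.closure_empty, Subgroup.mem_bot]
  constructor
  · rintro ⟨w, hw, hc⟩
    rw [(h1 w).1 hw] at hc
    exact hc
  · exact fun hc => ⟨1, one_mem _, hc⟩

/-- `P_{i} = B ∪ B n B` -/
theorem exists_two_cosets [Finite W] (i : I) : ∃ n₀ ∈ PJ cs h T X {i}, n₀ ∉ PJ cs h T X ∅ ∧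
    ∀ x ∈ PJ cs h T X {i}, x ∈ PJ cs h T X ∅ ∨ ∃ a ∈ PJ cs h T X ∅, ∃ b ∈ PJ cs h T X ∅, x = a * n₀ * b := by
  have hi : cs.simple i ∈ WJ cs {i} := Subgroup.subset_closure ⟨i, rfl, rfl⟩
  obtain ⟨g, hg⟩ := exists_rp cs R.nsys (cs.simple i)
  have hB : ∀ b ∈ RGD.B cs h T X, b ∈ PJ cs h T X ∅ := fun b hb => B_le_PJ hb
  refine ⟨g, LJ_le_PJ (rp_mem_LJ R hi hg), ?_, ?_⟩
  · intro h1
    have h2 := Cell.unique R (cell_of_rp hg) ((mem_PJ_empty R).1 h1)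
    have h3 : cs.length (cs.simple i) = 0 := by rw [h2, cs.length_one]
    rw [cs.length_simple] at h3
    exact one_ne_zero h3
  · intro x hx
    obtain ⟨w, hw, hc⟩ := (mem_PJ_iff_cell R).1 hx
    rcases mem_WJ_single' hw with rfl | rfl
    · exact Or.inl ((mem_PJ_empty R).2 hc)
    · right
      obtain ⟨b₁, hb₁, k, hk, b₂, hb₂, e⟩ := hc
      have h3 : g⁻¹ * k ∈ T := hg.unique hk
      refine ⟨b₁, hB _ hb₁, (g⁻¹ * k) * b₂, mul_mem (hB _ (RGD.T_le_B h3)) (hB _ hb₂), ?_⟩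
      rw [e]
      group

theorem fix_of_not_cusp' [Finite W] [Finite Y] {J : Set I} {ψ : ↥(PJ cs h T X J) → ℂ}
    {α : ↥(LJ cs h T X J) → ℂ} (hαψ : α ∘ projL R J = ψ) {i : I} (hi : i ∈ J) [Fintype (rad cs h X J i)]
    (hne : ∑ u : rad cs h X J i, α ⟨u, rad_le_LJ J i u.2⟩ ≠ 0) {K : Set I} (hK : K = J \ {i}) :
    ∃ hP : VJ cs h X K ≤ PJ cs h T X J, ∀ [Fintype (VJ cs h X K)],
      ∑ v : VJ cs h X K, ψ (Subgroup.inclusion hP v) ≠ 0 := by
  subst hK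
  exact fix_of_not_cusp R hαψ hi hne

theorem fix_of_not [Finite W] [Finite Y] {i : I} {ψ : ↥(PJ cs h T X {i}) → ℂ}
    {α : ↥(LJ cs h T X {i}) → ℂ} (hαψ : α ∘ projL R {i} = ψ) (hc : ¬ CuspL cs h T X {i} α) :
    ∃ hP : VJ cs h X ∅ ≤ PJ cs h T X {i}, ∀ [Fintype (VJ cs h X ∅)],
      ∑ v : VJ cs h X ∅, ψ (Subgroup.inclusion hP v) ≠ 0 := by
  by_contra hne
  apply hc
  intro j hj hfj
  by_contra h0
  apply hne
  have hji : j = i := hj
  exact fix_of_not_cusp' R hαψ hj h0 (K := ∅) (by rw [hji]; exact Set.sdiff_self.symm)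

/-- the constituents of `χ|_B` trivial on `U` -/
theorem eq_one_of_const [Finite W] [Fintype Y] (hG : GG cs h T X = ⊤) {χ : Y → ℂ} (hχ : IsIrrCharacter Y χ)
    [Fintype (PJ cs h T X ∅)]
    (hχB : classInner (indFun (PJ cs h T X ∅) (1 : ↥(PJ cs h T X ∅) → ℂ)) χ ≠ 0) {θ : ↥(PJ cs h T X ∅) → ℂ}
    (hθ : IsIrrCharacter _ θ) (hθV : ∀ (v : Y) (hv : v ∈ VJ cs h X (∅ : Set I)), θ ⟨v, VJ_le_PJ hv⟩ = θ 1)
    (h6 : classInner (fun t : PJ cs h T X ∅ => χ t) θ ≠ 0) : θ = 1 := by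
  classical
  obtain ⟨hα0, hα0θ⟩ := deflate R hθ hθV
  generalize hα : θ ∘ Subgroup.inclusion (LJ_le_PJ (cs := cs) (h := h) (T := T) (X := X) (J := ∅)) = α at hα0 hα0θ
  have hone : IsIrrCharacter (LJ cs h T X ∅) (1 : LJ cs h T X ∅ → ℂ) := Core.isIrr_one
  have hcone : CuspL cs h T X ∅ (1 : LJ cs h T X ∅ → ℂ) := fun j hj => absurd hj (Set.notMem_empty j)
  have hHC1 : HC R ∅ (1 : LJ cs h T X ∅ → ℂ) = indFun (PJ cs h T X ∅) (1 : ↥(PJ cs h T X ∅) → ℂ) := rfl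
  have hHC1c : IsCharacter Y (HC R ∅ (1 : LJ cs h T X ∅ → ℂ)) := by
    rw [hHC1]
    exact isChar_ind _ Core.isCharacter_one
  have hHCα : HC R ∅ α = indFun (PJ cs h T X ∅) θ := by
    unfold HC
    rw [hα0θ]
  have h7 : classInner (HC R ∅ α) χ ≠ 0 := by
    rw [hHCα, classInner_indFun (PJ cs h T X ∅) _ _ (Core.isIrr_isClassFunction hχ)]
    exact classInner_symm_ne h6
  have h7c : IsCharacter Y (HC R ∅ α) := by
    rw [hHCα]
    exact isChar_ind _ (Core.isIrr_isCharacter hθ)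
  have h8 := ne_zero_of_common h7c hHC1c hχ h7 (by rw [hHC1]; exact hχB)
  obtain ⟨-, w, hw, g, hg, htw⟩ := HC_eq_of_ne R hG ∅ ∅ hα0 hone
    (fun j hj => absurd hj (Set.notMem_empty j)) hcone h8
  rw [← hα0θ]
  funext t
  rw [Function.comp_apply]
  exact htw _ (projL R ∅ t).2 (cj_mem_LJ R hg hw (projL R ∅ t).2)

/-- the constituents of `χ|_P` trivial on `V_{i}` -/
theorem inner_ne_of_const [Finite W] [Fintype Y] (hG : GG cs h T X = ⊤) {χ : Y → ℂ} (hχ : IsIrrCharacter Y χ) {i : I}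
    [Fintype (PJ cs h T X ∅)] [Fintype (PJ cs h T X {i})] (hBP : PJ cs h T X ∅ ≤ PJ cs h T X {i})
    (hχB : classInner (indFun (PJ cs h T X ∅) (1 : ↥(PJ cs h T X ∅) → ℂ)) χ ≠ 0) {ψ : ↥(PJ cs h T X {i}) → ℂ}
    (hψ : IsIrrCharacter _ ψ) (hψV : ∀ (v : Y) (hv : v ∈ VJ cs h X ({i} : Set I)), ψ ⟨v, VJ_le_PJ hv⟩ = ψ 1)
    (hne : classInner (fun t : PJ cs h T X {i} => χ t) ψ ≠ 0) :
    classInner (1 : ↥(PJ cs h T X ∅) → ℂ) (fun b : PJ cs h T X ∅ => ψ ⟨b, hBP b.2⟩) ≠ 0 := by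
  classical
  obtain ⟨hα, hαψ⟩ := deflate R hψ hψV
  generalize hαd : ψ ∘ Subgroup.inclusion (LJ_le_PJ (cs := cs) (h := h) (T := T) (X := X) (J := {i})) = α at hα hαψ
  have hHCα : HC R {i} α = indFun (PJ cs h T X {i}) ψ := by
    unfold HC
    rw [hαψ]
  by_cases hcusp : CuspL cs h T X {i} α
  · exfalso
    have hone : IsIrrCharacter (LJ cs h T X ∅) (1 : LJ cs h T X ∅ → ℂ) := Core.isIrr_one
    have hcone : CuspL cs h T X ∅ (1 : LJ cs h T X ∅ → ℂ) := fun j hj => absurd hj (Set.notMem_empty j)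
    have hHC1 : HC R ∅ (1 : LJ cs h T X ∅ → ℂ) = indFun (PJ cs h T X ∅) (1 : ↥(PJ cs h T X ∅) → ℂ) := rfl
    have hHC1c : IsCharacter Y (HC R ∅ (1 : LJ cs h T X ∅ → ℂ)) := by
      rw [hHC1]
      exact isChar_ind _ Core.isCharacter_one
    have h7 : classInner (HC R {i} α) χ ≠ 0 := by
      rw [hHCα, classInner_indFun (PJ cs h T X {i}) _ _ (Core.isIrr_isClassFunction hχ)]
      exact classInner_symm_ne hne
    have h7c : IsCharacter Y (HC R {i} α) := by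
      rw [hHCα]
      exact isChar_ind _ (Core.isIrr_isCharacter hψ)
    have h1 := ne_zero_of_common h7c hHC1c hχ h7 (by rw [hHC1]; exact hχB)
    obtain ⟨-, w, hw, -⟩ := HC_eq_of_ne R hG {i} ∅ hα hone hcusp hcone h1
    obtain ⟨k, hk, -⟩ := hw.2 i rfl
    exact hk
  · obtain ⟨hP, h2⟩ := fix_of_not R hαψ hcusp
    exact exists_beta (V := VJ cs h X ∅) (B := PJ cs h T X ∅) (P := PJ cs h T X {i}) VJ_le_PJ hBP hP
      (PJ_le_normalizer_VJ R ∅) (Core.isIrr_isCharacter hχ) hψ hne h2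
      fun β hβ hβV h5 => eq_one_of_const R hG hχ hχB hβ hβV h5

/-- **The values of the constituents of `1_B^G`.** -/
theorem val_y [Finite W] [Fintype Y] (hG : GG cs h T X = ⊤) {χ : Y → ℂ} (hχ : IsIrrCharacter Y χ)
    (hχB : classInner χ (indFun (PJ cs h T X ∅) (1 : ↥(PJ cs h T X ∅) → ℂ)) ≠ 0) {i : I} {y : Y}
    (hy : y ∈ PJ cs h T X {i}) (hf : ∀ v ∈ VJ cs h X {i}, y * v * y⁻¹ = v → v = 1)
    (hnB : ∀ g ∈ PJ cs h T X {i}, g * y * g⁻¹ ∉ PJ cs h T X ∅) :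
    χ y = 2 * classInner χ (indFun (PJ cs h T X {i}) (1 : ↥(PJ cs h T X {i}) → ℂ)) -
      classInner χ (indFun (PJ cs h T X ∅) (1 : ↥(PJ cs h T X ∅) → ℂ)) := by
  classical
  have : Fintype (PJ cs h T X {i}) := Fintype.ofFinite _
  have : Fintype (PJ cs h T X ∅) := Fintype.ofFinite _
  have hBP : PJ cs h T X ∅ ≤ PJ cs h T X {i} := fun x hx =>
    (mem_PJ_iff_cell R).2 ⟨1, one_mem _, (mem_PJ_empty R).1 hx⟩
  obtain ⟨n₀, hn₀P, hn₀B, hcos⟩ := exists_two_cosets R i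
  exact val_sub (V := VJ cs h X {i}) (B := PJ cs h T X ∅) (P := PJ cs h T X {i}) VJ_le_PJ hBP
    (PJ_le_normalizer_VJ R {i}) hy hf hnB hn₀P hn₀B hcos (Core.isIrr_isCharacter hχ)
    fun ψ hψ hne hψV => inner_ne_of_const R hG hχ hBP (classInner_symm_ne hχB) hψ hψV hne

end Cfsg.Agent.H554.TW
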