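import Cfsg.Agent.H554.TW.Abs

/-!
# Families of characters agreeing on the proper parabolic subgroups (S2452, helper554)

`G` a finite group with a root group datum.

* `exc_zero` : characters agreeing on the proper parabolic subgroups, more than `|W|` of them, vanish at the elements `y`
  of a proper parabolic `P_K` without fixed points on `V_K`;
-/

set_option autoImplicit false
set_option linter.unusedSectionVars false

open scoped ComplexConjugate Pointwise
open Cfsg

namespace Cfsg.Agent.H554.TW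

open Cfsg.Agent.OddOrderCharacters.Clifford Cfsg.Agent.Characters Cfsg.Agent.H53.HC Cfsg.Agent.H641.Gow
open Cfsg.Agent.H45.GG
open CoxeterSystem Cfsg.Agent.ChevalleyStructure.CoxeterGeom Cfsg.Agent.Tits.Roots Cfsg.Agent.Tits.Core
  Cfsg.Agent.Tits.Exchange Cfsg.Agent.Nodes.Reps Cfsg.Agent.Nodes.BNOf Cfsg.Agent.Nodes.StabComb
  Cfsg.Agent.Nodes.Bruhat Cfsg.Agent.Nodes.OppDec Cfsg.Agent.Nodes.LeviDec
open Cfsg.Agent.H246.Dl (sum_hom_ne_zero const_of_sum_ne_zero classInner_symm_ne)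

variable {I W Y : Type*} [Fintype I] [DecidableEq I] [Group W] [Group Y] {M : CoxeterMatrix I}
  {cs : CoxeterSystem M W} {A : I → I → ℤ} {h : IsCartan M A} {p : ℕ} {T : Subgroup Y} {n : I → Y}
  {X : (I → ℤ) → Subgroup Y} (R : RGD cs h p T n X)

include R

/-- the character of the Levi subgroup below an irreducible character of `P_J` trivial on `V_J` -/
theorem deflate [Finite W] [Finite Y] {J : Set I} {ψ : ↥(PJ cs h T X J) → ℂ} (hψ : IsIrrCharacter _ ψ)
    (hV : ∀ (v : Y) (hv : v ∈ VJ cs h X J), ψ ⟨v, VJ_le_PJ hv⟩ = ψ 1) :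
    IsIrrCharacter _ (ψ ∘ Subgroup.inclusion (LJ_le_PJ (cs := cs) (h := h) (T := T) (X := X) (J := J))) ∧
      (ψ ∘ Subgroup.inclusion (LJ_le_PJ (cs := cs) (h := h) (T := T) (X := X) (J := J))) ∘ projL R J = ψ := by
  have hαc : IsCharacter _ (ψ ∘ Subgroup.inclusion (LJ_le_PJ (cs := cs) (h := h) (T := T) (X := X) (J := J))) :=
    Core.isCharacter_comp _ (Core.isIrr_isCharacter hψ)
  have hαψ : (ψ ∘ Subgroup.inclusion (LJ_le_PJ (cs := cs) (h := h) (T := T) (X := X) (J := J))) ∘ projL R J = ψ := by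
    funext q
    obtain ⟨l, hl, v, hv, hq⟩ := (mem_PJ R).1 q.2
    have e1 : q = ⟨l, LJ_le_PJ hl⟩ * ⟨v, VJ_le_PJ hv⟩ := Subtype.ext hq
    rw [e1, apply_mul_ker (Core.isIrr_isCharacter hψ) (hV v hv), Function.comp_apply, map_mul, projL_L R hl,
      projL_V R hv, mul_one]
    rfl
  exact ⟨isIrr_of_comp (projL R J) hαc (by rw [hαψ]; exact hψ), hαψ⟩

/-- a character of the Levi subgroup which is not cuspidal: fixed vectors of a smaller `V` -/
theorem fix_of_not_cusp [Finite W] [Finite Y] {J : Set I} {ψ : ↥(PJ cs h T X J) → ℂ}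
    {α : ↥(LJ cs h T X J) → ℂ} (hαψ : α ∘ projL R J = ψ) {i : I} (hi : i ∈ J) [Fintype (rad cs h X J i)]
    (hne : ∑ u : rad cs h X J i, α ⟨u, rad_le_LJ J i u.2⟩ ≠ 0) :
    ∃ hP : VJ cs h X (J \ {i}) ≤ PJ cs h T X J, ∀ [Fintype (VJ cs h X (J \ {i}))],
      ∑ v : VJ cs h X (J \ {i}), ψ (Subgroup.inclusion hP v) ≠ 0 := by
  have hP : VJ cs h X (J \ {i}) ≤ PJ cs h T X J := fun v hv => (projL_VJ R hi hv).choose
  refine ⟨hP, ?_⟩
  intro hfi
  let π : VJ cs h X (J \ {i}) →* rad cs h X J i :=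
    { toFun := fun v => ⟨projL R J ⟨v, hP v.2⟩, (projL_VJ R hi v.2).choose_spec⟩
      map_one' := by
        apply Subtype.ext
        change ((projL R J ⟨1, _⟩ : LJ cs h T X J) : Y) = 1
        have : (⟨1, hP (one_mem _)⟩ : PJ cs h T X J) = 1 := rfl
        rw [this, map_one]
        rfl
      map_mul' := fun a b => by
        apply Subtype.ext
        change ((projL R J (⟨a, hP a.2⟩ * ⟨b, hP b.2⟩) : LJ cs h T X J) : Y) = _
        rw [map_mul]
        rfl }
  have hπ : Function.Surjective π := by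
    intro u
    refine ⟨⟨u, rad_le_VJ R hi u.2⟩, Subtype.ext ?_⟩
    change ((projL R J ⟨u, _⟩ : LJ cs h T X J) : Y) = u
    rw [projL_L R (rad_le_LJ J i u.2)]
  obtain ⟨c, hc, hsum⟩ := sum_comp_surj π hπ (fun u => α ⟨u, rad_le_LJ J i u.2⟩)
  have h3 : ∀ v : VJ cs h X (J \ {i}), ψ (Subgroup.inclusion hP v) =
      (fun u : rad cs h X J i => α ⟨u, rad_le_LJ J i u.2⟩) (π v) := by
    intro v
    rw [← hαψ]
    rfl
  rw [Finset.sum_congr rfl fun v _ => h3 v, hsum]
  exact mul_ne_zero hc hne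

/-- **Every irreducible character lies in a Harish-Chandra series**, `J` minimal with `V_J`-fixed vectors. -/
theorem exists_series' [Finite W] [Fintype Y] {χ : Y → ℂ} (hχ : IsIrrCharacter Y χ) :
    ∃ (J : Set I) (α : ↥(LJ cs h T X J) → ℂ), IsIrrCharacter _ α ∧ CuspL cs h T X J α ∧
      classInner (HC R J α) χ ≠ 0 ∧
      ∀ K : Set I, K.ncard < J.ncard → ∀ [Fintype (VJ cs h X K)], ∑ v : VJ cs h X K, χ v = 0 := by
  classical
  let _ : ∀ J : Set I, Fintype (VJ cs h X J) := fun J => Fintype.ofFinite _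
  have hex : ∃ k : ℕ, ∃ J : Set I, J.ncard = k ∧ ∑ v : VJ cs h X J, χ v ≠ 0 := by
    refine ⟨_, Set.univ, rfl, ?_⟩
    have h1 : VJ cs h X Set.univ = ⊥ := by
      rw [eq_bot_iff]
      refine RGD.Sup_le fun x hx => ?_
      obtain ⟨-, -, k, hk, -⟩ := hx
      exact absurd (Set.mem_univ k) hk
    have h2 : ∀ v : VJ cs h X Set.univ, χ v = χ 1 := by
      rintro ⟨v, hv⟩
      rw [h1, Subgroup.mem_bot] at hv
      subst hv
      rfl
    rw [Finset.sum_congr rfl fun v _ => h2 v, Finset.sum_const, Finset.card_univ, nsmul_eq_mul]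
    refine mul_ne_zero ?_ (Core.isIrr_apply_one_ne_zero hχ)
    have : 0 < Fintype.card (VJ cs h X Set.univ) := Fintype.card_pos
    exact_mod_cast this.ne'
  obtain ⟨J, hJ, hJ0⟩ := Nat.find_spec hex
  have hmin : ∀ K : Set I, K.ncard < J.ncard → ∑ v : VJ cs h X K, χ v = 0 := by
    intro K hK
    by_contra hne
    rw [hJ] at hK
    exact Nat.find_min hex hK ⟨K, rfl, hne⟩
  have : Fintype (PJ cs h T X J) := Fintype.ofFinite _
  have : Fintype (LJ cs h T X J) := Fintype.ofFinite _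
  have : Finite (IrrCharacter (PJ cs h T X J)) := Core.finite_irr
  have : Fintype (IrrCharacter (PJ cs h T X J)) := Fintype.ofFinite _
  have hres : IsCharacter (PJ cs h T X J) (χ ∘ (PJ cs h T X J).subtype) :=
    Core.isCharacter_comp _ (Core.isIrr_isCharacter hχ)
  obtain ⟨m, hm⟩ := Core.exists_nat_comb hres
  have hVP : VJ cs h X J ≤ PJ cs h T X J := VJ_le_PJ
  have hNor : ((VJ cs h X J).subgroupOf (PJ cs h T X J)).Normal :=
    (Subgroup.normal_subgroupOf_iff_le_normalizer hVP).2 (PJ_le_normalizer_VJ R J)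
  have : Fintype ((VJ cs h X J).subgroupOf (PJ cs h T X J)) := Fintype.ofFinite _
  have h1 : (∑ v : VJ cs h X J, χ v : ℂ) =
      ∑ ψ : IrrCharacter (PJ cs h T X J), (m ψ : ℂ) * ∑ v : VJ cs h X J, (ψ : PJ cs h T X J → ℂ) ⟨v, hVP v.2⟩ := by
    symm
    simp only [Finset.mul_sum]
    rw [Finset.sum_comm]
    refine Finset.sum_congr rfl fun v _ => ?_
    have h2 := congrFun hm ⟨v, hVP v.2⟩
    simp only [Finset.sum_apply, nsmul_eq_mul] at h2
    exact h2.symm
  rw [h1] at hJ0
  obtain ⟨ψ, -, hψ⟩ := Finset.exists_ne_zero_of_sum_ne_zero hJ0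
  have hm0 : (m ψ : ℂ) ≠ 0 := left_ne_zero_of_mul hψ
  have hs0 := right_ne_zero_of_mul hψ
  have hV : ∀ (v : Y) (hv : v ∈ VJ cs h X J), (ψ : PJ cs h T X J → ℂ) ⟨v, VJ_le_PJ hv⟩ =
      (ψ : PJ cs h T X J → ℂ) 1 := fun v hv =>
    const_of_sum_ne_zero ((VJ cs h X J).subgroupOf (PJ cs h T X J)) ψ.2 (by
      intro h0
      apply hs0
      rw [← h0]
      exact (Fintype.sum_equiv (Subgroup.subgroupOfEquivOfLe hVP).symm.toEquiv _ _ fun v => rfl)) _
      (by rw [Subgroup.mem_subgroupOf]; exact hv)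
  have hψχ : classInner (χ ∘ (PJ cs h T X J).subtype) (ψ : PJ cs h T X J → ℂ) ≠ 0 := by
    rw [hm, Core.classInner_sum_nsmul_irr]
    exact hm0
  obtain ⟨hα, hαψ⟩ := deflate R ψ.2 hV
  refine ⟨J, _, hα, ?_, ?_, ?_⟩
  · intro i hi hf
    by_contra hne
    have hlt : (J \ {i}).ncard < J.ncard := Set.ncard_lt_ncard ⟨Set.diff_subset, fun hle => (hle hi).2 rfl⟩
    obtain ⟨hP, h2⟩ := fix_of_not_cusp R hαψ hi hne
    exact sum_hom_ne_zero (Subgroup.inclusion hP) hres ψ.2 hψχ h2 (hmin _ hlt)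
  · unfold HC
    rw [hαψ, classInner_indFun (PJ cs h T X J) _ _ (Core.isIrr_isClassFunction hχ)]
    exact classInner_symm_ne hψχ
  · intro K hK hf
    rw [← hmin K hK]
    refine Finset.sum_congr ?_ fun _ _ => rfl
    ext x
    simp

/-- **Many characters agreeing on the proper parabolic subgroups vanish at elliptic elements of proper Levi subgroups.** -/
theorem exc_zero [Finite W] [Fintype Y] (hG : GG cs h T X = ⊤) {ι : Type*} [Fintype ι] {E : ι → Y → ℂ}
    (hE : ∀ j, IsIrrCharacter Y (E j)) (hinj : Function.Injective E)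
    (hag : ∀ J : Set I, J ≠ Set.univ → ∀ g ∈ PJ cs h T X J, ∀ j j', E j g = E j' g)
    (hcard : Nat.card W < Fintype.card ι) {K : Set I} (hK : K ≠ Set.univ) {y : Y} (hy : y ∈ PJ cs h T X K)
    (hf : ∀ v ∈ VJ cs h X K, y * v * y⁻¹ = v → v = 1) (j : ι) : E j y = 0 := by
  classical
  have : Fintype (VJ cs h X K) := Fintype.ofFinite _
  obtain ⟨J, α, hα, hc, hne, hmin⟩ := exists_series' R (hE j)
  have hn : ∀ v ∈ VJ cs h X K, y⁻¹ * v * y ∈ VJ cs h X K := by
    intro v hv
    have := (Subgroup.mem_normalizer_iff.1 (inv_mem (PJ_le_normalizer_VJ R K hy)) v).1 hv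
    rwa [inv_inv] at this
  by_cases hJ : J = Set.univ
  · refine apply_zero hn hf (Core.isIrr_isCharacter (hE j)) (hmin K ?_)
    rw [hJ]
    exact Set.ncard_lt_ncard ⟨Set.subset_univ _, fun hle => hK (Set.eq_univ_of_univ_subset hle)⟩
  · exfalso
    have : Fintype (PJ cs h T X J) := Fintype.ofFinite _
    have hαP : IsIrrCharacter _ (α ∘ projL R J) := Core.isIrr_comp _ (projL_surjective R J) hα
    have h1 : ∀ j', classInner (HC R J α) (E j') ≠ 0 := by
      intro j'
      have e : ∀ k, classInner (HC R J α) (E k) =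
          classInner (α ∘ projL R J) (fun t : PJ cs h T X J => E k t) := by
        intro k
        unfold HC
        exact classInner_indFun (PJ cs h T X J) _ _ (Core.isIrr_isClassFunction (hE k))
      rw [e j']
      rw [e j] at hne
      have e2 : (fun t : PJ cs h T X J => E j' t) = fun t : PJ cs h T X J => E j t :=
        funext fun t => hag J hJ t t.2 j' j
      rw [e2]
      exact hne
    have h2 := classInner_HC_HC R hG J J hα hα hc hc
    have hch : IsCharacter Y (HC R J α) := isChar_ind _ (Core.isIrr_isCharacter hαP)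
    have h3 := card_le_norm hch hE hinj h1 h2
    have h4 : (SK R J J α α).ncard ≤ Nat.card W := Set.ncard_le_card _
    omega


end Cfsg.Agent.H554.TW
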